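import Cfsg.Agent.H768.RM.Norm
import Cfsg.Agent.Lib.CoprimeHyperplane

/-!
# Hall `{s,t}`-subgroups of a group without `T`-invariant `t`-subgroups (helper768)

* `exists_core` : `F = O_s(K)` contains its centralizer in `K`;
* `no_of_fix` : an elementary abelian subgroup `E` of order `t ^ 2` which centralizes each `E`-invariant `s`-subgroup of `C(x)`, `x ∈ E`
  of order `t`: no Hall `{s,t}`-subgroup.
-/

set_option autoImplicit false

namespace Cfsg.Agent.H768.RM

open Subgroup Cfsg Cfsg.Agent.H571.DExt Cfsg.Agent.H988.CPi Cfsg.Agent.H171.Odd Cfsg.Agent.H555.PiBS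
  Cfsg.Agent.Solvable.SZ Cfsg.Agent.H555.RV
open scoped Pointwise

universe u

variable {S : Type u} [Group S]

theorem exists_core [Finite S] {s t a b m : ℕ} (hs : s.Prime) (ht : t.Prime)
    (hS : Nat.card S = s ^ a * t ^ b * m) (h2 : ¬ s ∣ m) (hm : ¬ t ∣ m) (hI : Inv1 s t S) {K : Subgroup S}
    (hK : IsPiHall ({s, t} : Set ℕ) K) :
    ∃ Q : Subgroup S, Q ≤ K ∧ IsPGroup s Q ∧ K ≤ normalizer (Q : Set S) ∧ K ⊓ centralizer (Q : Set S) ≤ Q := by
  have hcK := card_hall hs ht hS h2 hm hK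
  have hfp : Fact t.Prime := ⟨ht⟩
  have hf2 : Fact s.Prime := ⟨hs⟩
  have hsol : Group.IsSolvable K := S0144.result s t a b hs ht hcK
  -- `O_t(K) = 1`
  have hOp : pCore t K = ⊥ := by
    obtain ⟨T⟩ : Nonempty (Sylow s K) := inferInstance
    have h3 := hI ((T : Subgroup K).map K.subtype) (T.isPGroup'.map _)
      (not_dvd_index_map (by simp) hK T) ((pCore t K).map K.subtype)
      ((Lib.Cores.pCore_isPGroup t).map _) (by
        rintro x ⟨t, -, rfl⟩
        apply mem_normalizer_fintype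
        rintro y ⟨z, hz, rfl⟩
        exact ⟨t * z * t⁻¹, (Lib.Cores.pCore_normal _).conj_mem z hz t, by simp⟩)
    rwa [map_eq_bot_iff_of_injective _ (subtype_injective _)] at h3
  have hO2 : pPrimeCore s K = ⊥ := by
    have h3 := Lib.Cores.pPrimeCore_coprime (G := K) s
    have h4 : Nat.card (pPrimeCore s K) ∣ t ^ b := by
      have h5 : Nat.card (pPrimeCore s K) ∣ s ^ a * t ^ b := by rw [← hcK]; exact card_subgroup_dvd_card _
      exact (Nat.Coprime.pow_right a h3).dvd_of_dvd_mul_left h5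
    have h5 : IsPGroup t (pPrimeCore s K) := by
      obtain ⟨k, -, hk⟩ := (Nat.dvd_prime_pow ht).1 h4
      exact IsPGroup.of_card hk
    have h6 := Lib.Cores.le_pCore (Lib.Cores.pPrimeCore_normal s) h5
    rw [hOp] at h6
    exact le_bot_iff.1 h6
  have hC := Lib.HallHigman.centralizer_pCore_le_of_solvable (G := K) s hO2
  refine ⟨(pCore s K).map K.subtype, map_subtype_le _, (Lib.Cores.pCore_isPGroup s).map _, ?_, ?_⟩
  · intro t ht
    apply mem_normalizer_fintype
    rintro y ⟨z, hz, rfl⟩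
    exact ⟨⟨t, ht⟩ * z * ⟨t, ht⟩⁻¹, (Lib.Cores.pCore_normal _).conj_mem z hz _, by simp⟩
  · rintro x ⟨hx, hxc⟩
    refine ⟨⟨x, hx⟩, hC ?_, rfl⟩
    show (⟨x, hx⟩ : K) ∈ centralizer (pCore s K : Set K)
    rw [mem_centralizer_iff]
    intro y hy
    exact Subtype.ext (mem_centralizer_iff.1 hxc (y : S) ⟨y, hy, rfl⟩)

/-- a `t`-element acting on an `s`-group: the number of fixed points -/
theorem le_cent_of_card [Finite S] {s t : ℕ} (hs : s.Prime) [ht : Fact t.Prime] {Q : Subgroup S} {k : ℕ}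
    (hQ : Nat.card Q = s ^ k) {E : Subgroup S} (hE : IsPGroup t E) (hEQ : E ≤ normalizer (Q : Set S))
    (h : ∀ i < k, ¬ s ^ i ≡ s ^ k [MOD t]) : Q ≤ centralizer (E : Set S) := by
  classical
  let _ : MulAction E Q :=
    { smul := fun e y => ⟨e * y * (e : S)⁻¹, (mem_normalizer_iff.1 (hEQ e.2) y).1 y.2⟩
      one_smul := fun y => Subtype.ext (by show (1 : S) * y * (1 : S)⁻¹ = y; rw [one_mul, inv_one, mul_one])
      mul_smul := fun e f y => Subtype.ext (by
        show ((e * f : E) : S) * y * ((e * f : E) : S)⁻¹ = e * (f * y * (f : S)⁻¹) * (e : S)⁻¹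
        rw [Subgroup.coe_mul]; group) }
  have hsm : ∀ (e : E) (y : Q), ((e • y : Q) : S) = e * y * (e : S)⁻¹ := fun _ _ => rfl
  have h1 := hE.card_modEq_card_fixedPoints Q
  have h2 : Nat.card (MulAction.fixedPoints E Q) = Nat.card ((centralizer (E : Set S)).subgroupOf Q) := by
    apply Nat.card_congr
    refine Equiv.subtypeEquivRight fun y => ?_
    rw [MulAction.mem_fixedPoints, mem_subgroupOf, mem_centralizer_iff]
    constructor
    · intro h3 e he
      have h4 := congrArg Subtype.val (h3 ⟨e, he⟩)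
      rw [hsm, mul_inv_eq_iff_eq_mul] at h4
      exact h4
    · intro h3 e
      apply Subtype.ext
      rw [hsm, mul_inv_eq_iff_eq_mul]
      exact h3 e e.2
  have h3 : Nat.card ((centralizer (E : Set S)).subgroupOf Q) ∣ s ^ k := by
    rw [← hQ]; exact card_subgroup_dvd_card _
  obtain ⟨i, hi, hik⟩ := (Nat.dvd_prime_pow hs).1 h3
  rw [h2, hik, hQ] at h1
  have h4 : i = k := by
    rcases lt_or_eq_of_le hi with h5 | h5
    · exact absurd h1.symm (h i h5)
    · exact h5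
  rw [h4, ← hQ] at hik
  exact subgroupOf_eq_top.1 (eq_top_of_card_eq _ hik)

/-- **(NC')** -/
theorem no_of_fix [Finite S] {N s t a b m : ℕ} (hS : Nat.card S = N) (hs : s.Prime) (ht : t.Prime)
    (hN : s ≠ t ∧ N = s ^ a * t ^ b * m ∧ ¬ s ∣ m ∧ ¬ t ∣ m) (hI : Inv1 s t S)
    (h : ∃ E : Subgroup S, IsElementaryAbelian t E ∧ Nat.card E = t ^ 2)
    (hE : ∀ E : Subgroup S, IsElementaryAbelian t E → Nat.card E = t ^ 2 → ∀ x ∈ E, orderOf x = t → ∀ R : Subgroup S,
      IsPGroup s R → E ≤ normalizer (R : Set S) → R ≤ centralizer ({x} : Set S) → R ≤ centralizer (E : Set S))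
    (K : Subgroup S) : ¬ IsPiHall ({s, t} : Set ℕ) K := by
  intro hK
  obtain ⟨hst, hN, h2, hm⟩ := hN
  have hfs : Fact s.Prime := ⟨hs⟩
  have hft : Fact t.Prime := ⟨ht⟩
  rw [hN] at hS
  obtain ⟨F, hFK, hFs, hKF, hCF⟩ := exists_core hs ht hS h2 hm hI hK
  -- a conjugate of `E` in `K`
  obtain ⟨P⟩ : Nonempty (Sylow t K) := inferInstance
  obtain ⟨E₀, hE₀, hcE₀⟩ := h
  have hE₀p : IsPGroup t E₀ := IsPGroup.of_card hcE₀
  obtain ⟨Q, hQ⟩ := hE₀p.exists_le_sylow
  have hPS : IsPGroup t ((P : Subgroup K).map K.subtype) := P.isPGroup'.map _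
  set P' : Sylow t S := hPS.toSylow (not_dvd_index_map (by simp) hK P) with hP'
  obtain ⟨g, hg⟩ := MulAction.exists_smul_eq S Q P'
  have hP'K : (P' : Subgroup S) ≤ K := by
    rw [hP', IsPGroup.toSylow_coe]; exact map_subtype_le _
  set E : Subgroup S := E₀.map (MulAut.conj g).toMonoidHom with hEdef
  have hEK : E ≤ K := by
    refine le_trans ?_ hP'K
    rw [← hg]
    exact map_mono hQ
  have hcE : Nat.card E = t ^ 2 := by rw [hEdef, card_map_of_injective (MulAut.conj g).injective, hcE₀]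
  have hEe : IsElementaryAbelian t E := by
    obtain ⟨h3, h4⟩ := hE₀
    refine ⟨?_, ?_⟩
    · refine ⟨⟨?_⟩⟩
      rintro ⟨_, ⟨x, hx, rfl⟩⟩ ⟨_, ⟨y, hy, rfl⟩⟩
      apply Subtype.ext
      have h5 := congrArg Subtype.val (h3.is_comm.comm ⟨x, hx⟩ ⟨y, hy⟩)
      have h6 : x * y = y * x := h5
      show (MulAut.conj g).toMonoidHom x * (MulAut.conj g).toMonoidHom y = _ * _
      rw [← map_mul, h6, map_mul]
    · rintro _ ⟨x, hx, rfl⟩
      rw [← map_pow, h4 x hx, map_one]
  have hE1 : E ≠ ⊥ := by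
    intro h3
    rw [h3, card_bot] at hcE
    have := ht.one_lt
    nlinarith
  have htF : ¬ t ∣ Nat.card F := by
    obtain ⟨k, hk⟩ := hFs.exists_card_eq
    rw [hk]
    intro h3
    exact hst ((Nat.prime_dvd_prime_iff_eq ht hs).1 (ht.dvd_of_dvd_pow h3)).symm
  have hgen := Lib.CoprimeHyperplane.iSup_centralizer_hyperplane hEe hE1 htF (hEK.trans hKF)
  have hFC : F ≤ centralizer (E : Set S) := by
    rw [← hgen]
    refine iSup_le fun B => ?_
    obtain ⟨B, hBE, hBi⟩ := B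
    have hcB : Nat.card B = t := by
      have h3 := card_inf_mul B E
      rw [inf_eq_left.2 hBE, hBi, hcE] at h3
      exact Nat.eq_of_mul_eq_mul_right ht.pos (by rw [h3]; ring)
    obtain ⟨⟨x, hxB⟩, hx⟩ := exists_prime_orderOf_dvd_card' (G := B) t (by rw [hcB])
    rw [Subgroup.orderOf_mk] at hx
    refine hE E hEe hcE x (hBE hxB) hx _ (hFs.to_le inf_le_left) ?_ ?_
    · -- `E` normalises `F ⊓ C(B)`
      intro e he
      apply mem_normalizer_fintype
      rintro y ⟨hy1, hy2⟩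
      refine ⟨(mem_normalizer_iff.1 (hKF (hEK he)) y).1 hy1, ?_⟩
      show e * y * e⁻¹ ∈ centralizer (B : Set S)
      rw [mem_centralizer_iff]
      intro b hb
      have h3 : b * y = y * b := mem_centralizer_iff.1 hy2 b hb
      have h4 : b * e = e * b := congrArg Subtype.val (hEe.1.is_comm.comm ⟨b, hBE hb⟩ ⟨e, he⟩)
      have h5 : b * e⁻¹ = e⁻¹ * b := by
        rw [eq_inv_mul_iff_mul_eq, ← mul_assoc, ← h4, mul_inv_cancel_right]
      calc b * (e * y * e⁻¹) = (b * e) * y * e⁻¹ := by group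
        _ = e * (b * y) * e⁻¹ := by rw [h4]; group
        _ = e * y * (b * e⁻¹) := by rw [h3]; group
        _ = e * y * e⁻¹ * b := by rw [h5]; group
    · rintro y ⟨-, hy⟩
      rw [mem_centralizer_singleton_iff]
      exact (mem_centralizer_iff.1 hy x hxB).symm
  -- `E ≤ C_K(F) ≤ F`
  have h3 : E ≤ F := by
    intro e he
    refine hCF ⟨hEK he, ?_⟩
    show e ∈ centralizer (F : Set S)
    rw [mem_centralizer_iff]
    intro y hy
    exact (mem_centralizer_iff.1 (hFC hy) e he).symm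
  have h4 : t ∣ Nat.card E := by rw [hcE]; exact dvd_pow_self t (by norm_num)
  exact htF (h4.trans (card_dvd_of_le h3))

/-- **(NC)** -/
theorem no_of_nc [Finite S] {N s t a b m k : ℕ} (hS : Nat.card S = N) (hs : s.Prime) (ht : t.Prime)
    (hN : s ≠ t ∧ N = s ^ a * t ^ b * m ∧ ¬ s ∣ m ∧ ¬ t ∣ m) (hI : Inv1 s t S)
    (h : ∃ E : Subgroup S, IsElementaryAbelian t E ∧ Nat.card E = t ^ 2)
    (hx : ∀ x : S, orderOf x = t → ¬ s ^ k ∣ Nat.card (centralizer ({x} : Set S)))
    (hk : ∀ j < k, ∀ i < j, ¬ s ^ i ≡ s ^ j [MOD t])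
    (K : Subgroup S) : ¬ IsPiHall ({s, t} : Set ℕ) K := by
  refine no_of_fix hS hs ht hN hI h (fun E hE hcE x hxE hxo R hR hER hRx => ?_) K
  have hft : Fact t.Prime := ⟨ht⟩
  have hfs : Fact s.Prime := ⟨hs⟩
  obtain ⟨j, hj⟩ := hR.exists_card_eq
  have hjk : j < k := by
    by_contra h3
    push Not at h3
    refine hx x hxo ?_
    have h4 := card_dvd_of_le hRx
    rw [hj] at h4
    exact (pow_dvd_pow s h3).trans h4
  exact le_cent_of_card hs hj (IsPGroup.of_card hcE) hER (hk j hjk)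

theorem no_dom {π : Set ℕ} (h : ∀ K : Subgroup S, ¬ IsPiHall π K) : ¬ Dom π S := fun ⟨K, hK, _⟩ => h K hK

end Cfsg.Agent.H768.RM
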