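import Cfsg.Agent.H768.RM.Core

/-!
# A `t`-element acting on a Sylow `s`-subgroup of order `s ^ k`, `k` the order of `s` modulo `t` (helper768)
-/

set_option autoImplicit false

namespace Cfsg.Agent.H768.RM

open Subgroup Cfsg

universe u

variable {S : Type u} [Group S]

/-- the number of fixed points of a `t`-group acting on an `s`-group -/
theorem card_fix [Finite S] {s t : ℕ} (hs : s.Prime) [ht : Fact t.Prime] {Q : Subgroup S} {k : ℕ}
    (hQ : Nat.card Q = s ^ k) {E : Subgroup S} (hE : IsPGroup t E) (hEQ : E ≤ normalizer (Q : Set S)) :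
    ∃ i ≤ k, Nat.card (Q ⊓ centralizer (E : Set S) : Subgroup S) = s ^ i ∧ s ^ i ≡ s ^ k [MOD t] := by
  classical
  let _ : MulAction E Q :=
    { smul := fun e y => ⟨e * y * (e : S)⁻¹, (mem_normalizer_iff.1 (hEQ e.2) y).1 y.2⟩
      one_smul := fun y => Subtype.ext (by show (1 : S) * y * (1 : S)⁻¹ = y; rw [one_mul, inv_one, mul_one])
      mul_smul := fun e f y => Subtype.ext (by
        show ((e * f : E) : S) * y * ((e * f : E) : S)⁻¹ = e * (f * y * (f : S)⁻¹) * (e : S)⁻¹
        rw [Subgroup.coe_mul]; group) }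
  have hsm : ∀ (e : E) (y : Q), ((e • y : Q) : S) = e * y * (e : S)⁻¹ := fun _ _ => rfl
  have h1 := hE.card_modEq_card_fixedPoints Q
  have h2 : Nat.card (MulAction.fixedPoints E Q) = Nat.card ((centralizer (E : Set S)).subgroupOf Q) := by
    apply Nat.card_congr
    refine Equiv.subtypeEquivRight fun y => ?_
    rw [MulAction.mem_fixedPoints, mem_subgroupOf, mem_centralizer_iff]
    constructor
    · intro h3 e he
      have h4 := congrArg Subtype.val (h3 ⟨e, he⟩)
      rw [hsm, mul_inv_eq_iff_eq_mul] at h4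
      exact h4
    · intro h3 e
      apply Subtype.ext
      rw [hsm, mul_inv_eq_iff_eq_mul]
      exact h3 e e.2
  have h3 : Nat.card ((centralizer (E : Set S)).subgroupOf Q) ∣ s ^ k := by
    rw [← hQ]; exact card_subgroup_dvd_card _
  obtain ⟨i, hi, hik⟩ := (Nat.dvd_prime_pow hs).1 h3
  refine ⟨i, hi, ?_, ?_⟩
  · rw [← hik, ← card_map_of_injective (subtype_injective Q), subgroupOf_map_subtype, inf_comm]
  · rw [h2, hik, hQ] at h1
    exact h1.symm

/-- `s ^ i ≢ s ^ k` for `0 < i < k`, an element of order `s ^ 2`: the action on a Sylow `s`-subgroup of order `s ^ k` is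
trivial. -/
theorem le_cent_of_sq [Finite S] {s t k m : ℕ} (hs : s.Prime) [ht : Fact t.Prime]
    (hS : Nat.card S = s ^ k * m) (hm : ¬ s ∣ m) (hk : ∀ i j, i < j → j ≤ k → s ^ i ≡ s ^ j [MOD t] → i = 0 ∧ j = k)
    (hk0 : 0 < k) {g : S} (hg : orderOf g = s ^ 2) {P : Subgroup S} (hP : Nat.card P = s ^ k) {E : Subgroup S}
    (hE : IsPGroup t E) (hEP : E ≤ normalizer (P : Set S)) : P ≤ centralizer (E : Set S) := by
  have hfs : Fact s.Prime := ⟨hs⟩
  -- an invariant subgroup is contained in the fixed points or is `P`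
  have key : ∀ W : Subgroup S, W ≤ P → W ≠ ⊥ → E ≤ normalizer (W : Set S) →
      P ⊓ centralizer (E : Set S) = ⊥ → W = P := by
    intro W hWP hW hEW hbot
    obtain ⟨j, hj⟩ := ((IsPGroup.of_card hP : IsPGroup s P).to_le hWP).exists_card_eq
    have hjk : j ≤ k := by
      have h1 := card_dvd_of_le hWP
      rw [hj, hP] at h1
      exact (Nat.pow_dvd_pow_iff_le_right hs.one_lt).1 h1
    obtain ⟨i, hi, h1, h2⟩ := card_fix hs hj hE hEW
    have h3 : W ⊓ centralizer (E : Set S) = ⊥ := le_bot_iff.1 (by rw [← hbot]; exact inf_le_inf_right _ hWP)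
    rw [h3, card_bot] at h1
    have hi0 : i = 0 := by
      rcases Nat.eq_zero_or_pos i with h4 | h4
      · exact h4
      · exfalso
        have h5 := Nat.one_lt_pow h4.ne' hs.one_lt
        omega
    subst hi0
    have hj0 : 0 < j := by
      rcases Nat.eq_zero_or_pos j with h4 | h4
      · exfalso
        rw [h4, pow_zero] at hj
        exact hW (card_eq_one.1 hj)
      · exact h4
    have h4 := (hk 0 j hj0 hjk h2).2
    exact eq_of_le_of_card_ge hWP (by rw [hj, hP, h4])
  obtain ⟨i, hi, h1, h2⟩ := card_fix hs hP hE hEP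
  rcases Nat.lt_or_ge i k with hik | hik
  · exfalso
    have h3 := (hk i k hik le_rfl h2).1
    subst h3
    rw [pow_zero] at h1
    have hbot := card_eq_one.1 h1
    have hPs : IsPGroup s P := IsPGroup.of_card hP
    have hPne : P ≠ ⊥ := by
      rintro rfl
      rw [card_bot] at hP
      have h5 := Nat.one_lt_pow hk0.ne' hs.one_lt
      omega
    -- the centre
    have hZ := key (P ⊓ centralizer (P : Set S)) inf_le_left (by
        have hnt : Nontrivial P := (nontrivial_iff_ne_bot P).2 hPne
        have h4 := hPs.center_nontrivial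
        intro h5
        obtain ⟨⟨z, hz⟩, hz1⟩ := exists_ne (1 : center P)
        have h6 : (z : S) ∈ P ⊓ centralizer (P : Set S) := by
          refine ⟨z.2, mem_centralizer_iff.2 fun p hp => ?_⟩
          exact congrArg Subtype.val (mem_center_iff.1 hz ⟨p, hp⟩)
        rw [h5, mem_bot] at h6
        exact hz1 (Subtype.ext (Subtype.ext h6))) (by
        intro e he
        have h4 := hEP he
        apply mem_normalizer_fintype
        rintro p ⟨hp1, hp2⟩
        refine ⟨(mem_normalizer_iff.1 h4 p).1 hp1, mem_centralizer_iff.2 fun q hq => ?_⟩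
        have h5 : e⁻¹ * q * e ∈ P := (mem_normalizer_iff''.1 h4 q).1 hq
        have h6 := mem_centralizer_iff.1 hp2 _ h5
        calc q * (e * p * e⁻¹) = e * ((e⁻¹ * q * e) * p) * e⁻¹ := by group
          _ = e * p * e⁻¹ * q := by rw [h6]; group) hbot
    have hcomm : ∀ a ∈ P, ∀ b ∈ P, a * b = b * a := by
      intro a ha b hb
      rw [← hZ] at hb
      exact mem_centralizer_iff.1 hb.2 a ha
    -- the elements of order `s`
    let Ω : Subgroup S :=
      { carrier := {a | a ∈ P ∧ a ^ s = 1}
        one_mem' := ⟨P.one_mem, one_pow _⟩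
        mul_mem' := by
          rintro a b ⟨ha, ha'⟩ ⟨hb, hb'⟩
          refine ⟨P.mul_mem ha hb, ?_⟩
          rw [(show Commute a b from hcomm a ha b hb).mul_pow, ha', hb', one_mul]
        inv_mem' := by
          rintro a ⟨ha, ha'⟩
          exact ⟨P.inv_mem ha, by rw [inv_pow, ha', inv_one]⟩ }
    have hΩ := key Ω (fun a ha => ha.1) (by
        have hsP : s ∣ Nat.card P := by rw [hP]; exact dvd_pow_self s hk0.ne'
        obtain ⟨a, ha⟩ := exists_prime_orderOf_dvd_card' s hsP
        intro h5
        have h6 : (a : S) ∈ Ω := ⟨a.2, by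
          have h7 : a ^ s = 1 := by rw [← ha]; exact pow_orderOf_eq_one a
          exact congrArg Subtype.val h7⟩
        rw [h5, mem_bot] at h6
        have h8 : a = 1 := Subtype.ext h6
        rw [h8, orderOf_one] at ha
        exact hs.one_lt.ne ha) (by
        intro e he
        apply mem_normalizer_fintype
        rintro p ⟨hp1, hp2⟩
        refine ⟨(mem_normalizer_iff.1 (hEP he) p).1 hp1, ?_⟩
        rw [conj_pow, hp2]; group) hbot
    -- a conjugate of `g`
    have hgp : IsPGroup s (zpowers g) := IsPGroup.of_card (n := 2) (by rw [Nat.card_zpowers, hg])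
    obtain ⟨P1, hP1⟩ := hgp.exists_le_sylow
    have hcard : ∀ R : Sylow s S, Nat.card (R : Subgroup S) = s ^ k := fun R =>
      H555.RV.card_sylow_of R hS hm
    obtain ⟨P2, hP2⟩ := hPs.exists_le_sylow
    have hP2' : P = P2 := eq_of_le_of_card_ge hP2 (by rw [hP, hcard])
    obtain ⟨c, hc⟩ := MulAction.exists_smul_eq S P1 P2
    have h9 : c * g * c⁻¹ ∈ P := by
      rw [hP2', ← hc]
      exact ⟨g, hP1 (mem_zpowers g), rfl⟩
    rw [← hΩ] at h9
    have h10 : (c * g * c⁻¹) ^ s = 1 := h9.2
    rw [conj_pow] at h10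
    have h11 : g ^ s = 1 := by
      have h12 : g ^ s = c⁻¹ * (c * g ^ s * c⁻¹) * c := by group
      rw [h12, h10]; group
    have h12 := orderOf_dvd_of_pow_eq_one h11
    rw [hg] at h12
    have h13 := Nat.le_of_dvd hs.pos h12
    have h14 : s < s ^ 2 := by
      rw [pow_two]
      exact lt_mul_of_one_lt_left hs.pos hs.one_lt
    omega
  · have h3 : P ⊓ centralizer (E : Set S) = P := eq_of_le_of_card_ge inf_le_left (by
      rw [h1, hP]; exact Nat.pow_le_pow_right hs.pos hik)
    exact inf_eq_left.1 h3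

end Cfsg.Agent.H768.RM
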