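import Cfsg.Agent.H768.RM.FiTwentyTwoA
import Cfsg.Agent.H768.RM.Core
import Cfsg.Agent.H573.Hall.FiTwentyTwo
import Cfsg.Agent.H835.SylFive

/-!
# S3849, P11: `Fi22`, the pair `(3,5)` (helper768)
-/

set_option autoImplicit false

namespace Cfsg.Agent.H768.RM

open Subgroup Cfsg Cfsg.Agent.H571.DExt

universe u

theorem no_fi22_3_5 {S : Type u} [Group S] [Finite S] [IsSimpleGroup S] (h : Spor.IsoFi22 S) :
    ¬ Dom ({3, 5} : Set ℕ) S := by
  have hI := (H573.Hall.inv_fi22 h).1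
  obtain ⟨e⟩ := h
  have I := H836.inv_of_iso e
  have h5 : Fact (Nat.Prime 5) := ⟨by norm_num⟩
  obtain ⟨E⟩ : Nonempty (Sylow 5 S) := inferInstance
  obtain ⟨h1, h2, -, -⟩ := H835.SylFive.syl_concl I E
  exact no_dom fun K => no_of_nc (a := 9) (b := 2) (m := 131203072) (k := 2) I.ctx.card (by norm_num) (by norm_num)
    (by decide +kernel) hI ⟨E, h1, h2⟩ (fun x hx => I.ctx.nine_five (by rw [← hx, pow_orderOf_eq_one])
      (by rintro rfl; rw [orderOf_one] at hx; norm_num at hx)) (by decide) K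

end Cfsg.Agent.H768.RM
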