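import Cfsg.Agent.H768.RM.Norm
import Cfsg.Agent.H836.Main

/-!
# S3849, P11: `Fi22`, the pairs `(3,7)`, `(3,11)`, `(3,13)` (helper768)
-/

set_option autoImplicit false

namespace Cfsg.Agent.H768.RM

open Subgroup Cfsg Cfsg.Agent.H571.DExt

universe u

theorem exists_of_prime {S : Type u} [Group S] [Finite S] {t : ℕ} (ht : t.Prime) (hd : t ∣ Nat.card S) :
    ∃ x : S, orderOf x = t ∧ Nat.card ↥(zpowers x) = t := by
  have : Fact t.Prime := ⟨ht⟩
  obtain ⟨x, hx⟩ := exists_prime_orderOf_dvd_card' t hd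
  exact ⟨x, hx, by rw [Nat.card_zpowers, hx]⟩

theorem no_fi22_3_7 {S : Type u} [Group S] [Finite S] [IsSimpleGroup S] (h : Spor.IsoFi22 S) :
    ¬ Dom ({3, 7} : Set ℕ) S := by
  obtain ⟨e⟩ := h
  have I := H836.inv_of_iso e
  obtain ⟨x, hx, hX⟩ := exists_of_prime (S := S) (t := 7) (by norm_num) (by rw [I.ctx.card]; norm_num)
  exact no_of_norm (a := 9) (d := 2) (m := 468582400) I.ctx.card (by norm_num) (by norm_num) hx
    (H836.Main.card_normalizer_seven I hX) (by decide +kernel)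

theorem no_fi22_3_11 {S : Type u} [Group S] [Finite S] [IsSimpleGroup S] (h : Spor.IsoFi22 S) :
    ¬ Dom ({3, 11} : Set ℕ) S := by
  obtain ⟨e⟩ := h
  have I := H836.inv_of_iso e
  obtain ⟨x, hx, hX⟩ := exists_of_prime (S := S) (t := 11) (by norm_num) (by rw [I.ctx.card]; norm_num)
  exact no_of_norm (a := 9) (d := 0) (m := 298188800) I.ctx.card (by norm_num) (by norm_num) hx
    (H836.Main.card_normalizer_eleven I hX) (by decide +kernel)

theorem no_fi22_3_13 {S : Type u} [Group S] [Finite S] [IsSimpleGroup S] (h : Spor.IsoFi22 S) :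
    ¬ Dom ({3, 13} : Set ℕ) S := by
  obtain ⟨e⟩ := h
  have I := H836.inv_of_iso e
  obtain ⟨x, hx, hX⟩ := exists_of_prime (S := S) (t := 13) (by norm_num) (by rw [I.ctx.card]; norm_num)
  exact no_of_norm (a := 9) (d := 1) (m := 252313600) I.ctx.card (by norm_num) (by norm_num) hx
    ((H836.Main.thirteen_concl e).2 _ hX).1 (by decide +kernel)

end Cfsg.Agent.H768.RM
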