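import Cfsg.Agent.H768.RM.Eleven

/-!
# Hall `{s,t}`-subgroups: the borderline case `|C(x)|_s = s ^ k`, `k` the order of `s` modulo `t` (helper768)

`no_of_nonab` : `Inv1 s t`, `E` elementary abelian of order `t ^ 2`, `s ^ (k + 1)` does not divide `|C(x)|`, `C(x)` has a nonabelian
`s`-subgroup for each `x` of order `t`: no Hall `{s,t}`-subgroup.
-/

set_option autoImplicit false

namespace Cfsg.Agent.H768.RM

open Subgroup Cfsg Cfsg.Agent.H571.DExt Cfsg.Agent.H171.Odd

universe u

variable {S : Type u} [Group S]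

theorem le_cent_of_nonab [Finite S] {s t k : ℕ} (hs : s.Prime) [ht : Fact t.Prime]
    (hk : ∀ i j, i < j → j ≤ k → s ^ i ≡ s ^ j [MOD t] → i = 0 ∧ j = k) {x : S}
    (hx : ¬ s ^ (k + 1) ∣ Nat.card (centralizer ({x} : Set S)))
    (hT : ∃ T : Subgroup S, IsPGroup s T ∧ T ≤ centralizer ({x} : Set S) ∧ ∃ a ∈ T, ∃ b ∈ T, a * b ≠ b * a)
    {E : Subgroup S} (hEp : IsPGroup t E) {R : Subgroup S} (hR : IsPGroup s R) (hER : E ≤ normalizer (R : Set S))
    (hRx : R ≤ centralizer ({x} : Set S)) : R ≤ centralizer (E : Set S) := by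
  have hfs : Fact s.Prime := ⟨hs⟩
  obtain ⟨j, hj⟩ := hR.exists_card_eq
  have hjk : j ≤ k := by
    by_contra h3
    push Not at h3
    refine hx ?_
    have h4 := card_dvd_of_le hRx
    rw [hj] at h4
    exact (pow_dvd_pow s h3).trans h4
  obtain ⟨i, hij, h1, h2⟩ := card_fix hs hj hEp hER
  have h3 : i = j ∨ (i = 0 ∧ j = k ∧ 0 < j) := by
    rcases Nat.lt_or_ge i j with h | h
    · obtain ⟨h4, h5⟩ := hk i j h hjk h2
      exact Or.inr ⟨h4, h5, by omega⟩
    · exact Or.inl (le_antisymm hij h)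
  rcases h3 with h3 | ⟨h3, h4, hj0⟩
  · exact inf_eq_left.1 (eq_of_le_of_card_ge inf_le_left (by rw [h1, h3, hj]))
  · exfalso
    subst h3
    rw [pow_zero] at h1
    have hbot := card_eq_one.1 h1
    have hRne : R ≠ ⊥ := by
      rintro rfl
      rw [card_bot] at hj
      have := Nat.one_lt_pow hj0.ne' hs.one_lt
      omega
    -- `R` is abelian
    have hZ : R ⊓ centralizer (R : Set S) = R := by
      obtain ⟨l, hl⟩ := (hR.to_le (inf_le_left : R ⊓ centralizer (R : Set S) ≤ R)).exists_card_eq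
      have hlk : l ≤ j := by
        have h3 := card_dvd_of_le (inf_le_left : R ⊓ centralizer (R : Set S) ≤ R)
        rw [hl, hj] at h3
        exact (Nat.pow_dvd_pow_iff_le_right hs.one_lt).1 h3
      obtain ⟨i', hi', h3, h5⟩ := card_fix hs hl hEp (by
        intro e he
        have h4 := hER he
        apply mem_normalizer_fintype
        rintro p ⟨hp1, hp2⟩
        refine ⟨(mem_normalizer_iff.1 h4 p).1 hp1, mem_centralizer_iff.2 fun q hq => ?_⟩
        have h5 : e⁻¹ * q * e ∈ R := (mem_normalizer_iff''.1 h4 q).1 hq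
        have h6 := mem_centralizer_iff.1 hp2 _ h5
        calc q * (e * p * e⁻¹) = e * ((e⁻¹ * q * e) * p) * e⁻¹ := by group
          _ = e * p * e⁻¹ * q := by rw [h6]; group)
      have h6 : R ⊓ centralizer (R : Set S) ⊓ centralizer (E : Set S) = ⊥ :=
        le_bot_iff.1 (by rw [← hbot]; exact inf_le_inf_right _ inf_le_left)
      rw [h6, card_bot] at h3
      have hi0 : i' = 0 := by
        rcases Nat.eq_zero_or_pos i' with h7 | h7
        · exact h7
        · exfalso
          have h8 := Nat.one_lt_pow h7.ne' hs.one_lt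
          omega
      subst hi0
      have hl0 : 0 < l := by
        rcases Nat.eq_zero_or_pos l with h9 | h9
        · exfalso
          rw [h9, pow_zero] at hl
          have h6 := card_eq_one.1 hl
          have hnt : Nontrivial R := (nontrivial_iff_ne_bot R).2 hRne
          have h7 := hR.center_nontrivial
          obtain ⟨⟨z, hz⟩, hz1⟩ := exists_ne (1 : center R)
          have h8 : (z : S) ∈ R ⊓ centralizer (R : Set S) := by
            refine ⟨z.2, mem_centralizer_iff.2 fun p hp => ?_⟩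
            exact congrArg Subtype.val (mem_center_iff.1 hz ⟨p, hp⟩)
          rw [h6, mem_bot] at h8
          exact hz1 (Subtype.ext (Subtype.ext h8))
        · exact h9
      have hlk' := (hk 0 l hl0 (hlk.trans hjk) h5).2
      exact eq_of_le_of_card_ge inf_le_left (by rw [hl, hj, hlk', h4])
    have hcomm : ∀ a ∈ R, ∀ b ∈ R, a * b = b * a := by
      intro a ha b hb
      rw [← hZ] at hb
      exact mem_centralizer_iff.1 hb.2 a ha
    -- a Sylow `s`-subgroup of `C(x)`
    obtain ⟨T, hT, hTx, a, ha, b, hb, hab⟩ := hT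
    set C := centralizer ({x} : Set S) with hC
    obtain ⟨T1, hT1⟩ := (hT.comap_subtype : IsPGroup s (T.subgroupOf C)).exists_le_sylow
    obtain ⟨R1, hR1⟩ := (hR.comap_subtype : IsPGroup s (R.subgroupOf C)).exists_le_sylow
    have hcR : Nat.card (R.subgroupOf C) = s ^ k := by
      rw [← card_map_of_injective (subtype_injective C), subgroupOf_map_subtype, inf_eq_left.2 hRx, hj, h4]
    have hR1' : R.subgroupOf C = R1 := by
      refine eq_of_le_of_card_ge hR1 ?_
      obtain ⟨l, hl⟩ := R1.isPGroup'.exists_card_eq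
      have hl' : Nat.card (R1 : Subgroup C) = s ^ l := hl
      have h5 : l < k + 1 := by
        by_contra h6
        push Not at h6
        refine hx ((pow_dvd_pow s h6).trans ?_)
        rw [← hl']
        exact card_subgroup_dvd_card _
      rw [hl', hcR]
      exact Nat.pow_le_pow_right hs.pos (by omega)
    obtain ⟨c, hc⟩ := MulAction.exists_smul_eq C T1 R1
    have key : ∀ u : C, u ∈ T.subgroupOf C → ((c * u * c⁻¹ : C) : S) ∈ R := by
      intro u hu
      have h5 : c * u * c⁻¹ ∈ (R1 : Subgroup C) := by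
        rw [← hc]
        exact ⟨u, hT1 hu, rfl⟩
      rw [← hR1'] at h5
      exact h5
    have h5 := hcomm _ (key ⟨a, hTx ha⟩ ha) _ (key ⟨b, hTx hb⟩ hb)
    apply hab
    have h6 : (c : S) * a * (c : S)⁻¹ * ((c : S) * b * (c : S)⁻¹) = (c : S) * b * (c : S)⁻¹ * ((c : S) * a * (c : S)⁻¹) := h5
    have h7 : (c : S) * (a * b) * (c : S)⁻¹ = (c : S) * (b * a) * (c : S)⁻¹ := by
      calc (c : S) * (a * b) * (c : S)⁻¹ = (c : S) * a * (c : S)⁻¹ * ((c : S) * b * (c : S)⁻¹) := by group
        _ = (c : S) * (b * a) * (c : S)⁻¹ := by rw [h6]; group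
    exact mul_left_cancel (mul_right_cancel h7)

/-- **(NCNA)** -/
theorem no_of_nonab [Finite S] {N s t a b m k : ℕ} (hS : Nat.card S = N) (hs : s.Prime) (ht : t.Prime)
    (hN : s ≠ t ∧ N = s ^ a * t ^ b * m ∧ ¬ s ∣ m ∧ ¬ t ∣ m) (hI : Inv1 s t S)
    (h : ∃ E : Subgroup S, IsElementaryAbelian t E ∧ Nat.card E = t ^ 2)
    (hk : ∀ i j, i < j → j ≤ k → s ^ i ≡ s ^ j [MOD t] → i = 0 ∧ j = k)
    (hx : ∀ x : S, orderOf x = t → ¬ s ^ (k + 1) ∣ Nat.card (centralizer ({x} : Set S)))
    (hT : ∀ x : S, orderOf x = t →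
      ∃ T : Subgroup S, IsPGroup s T ∧ T ≤ centralizer ({x} : Set S) ∧ ∃ a ∈ T, ∃ b ∈ T, a * b ≠ b * a)
    (K : Subgroup S) : ¬ IsPiHall ({s, t} : Set ℕ) K := by
  have hft : Fact t.Prime := ⟨ht⟩
  exact no_of_fix hS hs ht hN hI h (fun E _ hcE x _ hxo R hR hER hRx =>
    le_cent_of_nonab hs hk (hx x hxo) (hT x hxo) (IsPGroup.of_card hcE) hR hER hRx) K

end Cfsg.Agent.H768.RM
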