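import Cfsg.Agent.H555.RV.Count

/-!
# The Sylow count for `D_{s,t}` (helper768)

`no_of_count` : `|S| = s ^ a * t ^ b * m`, `s ^ d` the exact power of `s` in `|N_S(P)|`, `P` Sylow `t`: `D_{s,t}` gives
`s ^ (a - d) ≡ 1` mod `t`.
-/

set_option autoImplicit false

namespace Cfsg.Agent.H768.RM

open Subgroup Cfsg Cfsg.Agent.H571.DExt Cfsg.Agent.H988.CPi Cfsg.Agent.H171.Odd Cfsg.Agent.H555.PiBS
  Cfsg.Agent.Solvable.SZ Cfsg.Agent.H555.RV
open scoped Pointwise

universe u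

variable {S : Type u} [Group S]

theorem piN_sub [Finite S] {s t p : ℕ} (hp : p.Prime) (h : p = s ∨ p = t) {P : Subgroup S} (hP : IsPGroup p P) :
    PiN ({s, t} : Set ℕ) (Nat.card P) := by
  have hf : Fact p.Prime := ⟨hp⟩
  obtain ⟨k, hk⟩ := hP.exists_card_eq
  intro r hr hrd
  rw [hk] at hrd
  rw [(Nat.prime_dvd_prime_iff_eq hr hp).1 (hr.dvd_of_dvd_pow hrd)]
  rcases h with h | h
  · left; exact h
  · right; exact h

theorem card_hall [Finite S] {s t a b m : ℕ} (hs : s.Prime) (ht : t.Prime) (hS : Nat.card S = s ^ a * t ^ b * m)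
    (h2 : ¬ s ∣ m) (hm : ¬ t ∣ m) {K : Subgroup S} (hK : IsPiHall ({s, t} : Set ℕ) K) :
    Nat.card K = s ^ a * t ^ b := by
  have h1 := K.card_mul_index
  rw [hS] at h1
  refine (mul_unique (π := ({s, t} : Set ℕ)) hK.1 hK.2 ?_ ?_ h1)
  · intro r hr hd
    rcases hr.dvd_mul.1 hd with h | h
    · left; exact (Nat.prime_dvd_prime_iff_eq hr hs).1 (hr.dvd_of_dvd_pow h)
    · right; exact (Nat.prime_dvd_prime_iff_eq hr ht).1 (hr.dvd_of_dvd_pow h)
  · rintro r hr hrπ hd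
    rcases hrπ with rfl | h
    · exact h2 hd
    · rw [Set.mem_singleton_iff] at h
      subst h
      exact hm hd

theorem no_of_count [Finite S] {s t a b m d : ℕ} [hs : Fact s.Prime] [ht : Fact t.Prime] (hst : s ≠ t)
    (hS : Nat.card S = s ^ a * t ^ b * m) (h2 : ¬ s ∣ m) (hm : ¬ t ∣ m) (P : Sylow t S)
    (hd : s ^ d ∣ Nat.card (normalizer ((P : Subgroup S) : Set S)))
    (hd' : ¬ s ^ (d + 1) ∣ Nat.card (normalizer ((P : Subgroup S) : Set S)))
    (har : ¬ s ^ (a - d) ≡ 1 [MOD t]) : ¬ Dom ({s, t} : Set ℕ) S := by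
  intro hD
  obtain ⟨K₀, hK₀, hdom⟩ := hD
  have hcK₀ := card_hall hs.out ht.out hS h2 hm hK₀
  set N := normalizer ((P : Subgroup S) : Set S) with hN
  obtain ⟨T, hT⟩ := Sylow.exists_subgroup_card_pow_prime s hd
  set T1 : Subgroup S := T.map N.subtype with hT1
  have hcT : Nat.card T1 = s ^ d := by rw [hT1, card_map_of_injective (subtype_injective N), hT]
  have hTN : T1 ≤ N := map_subtype_le _
  have hcP : Nat.card (P : Subgroup S) = t ^ b := by
    refine card_sylow_of P (n := s ^ a * m) (by rw [hS]; ring) ?_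
    intro h5
    rcases ht.out.dvd_mul.1 h5 with h6 | h6
    · exact hst ((Nat.prime_dvd_prime_iff_eq ht.out hs.out).1 (ht.out.dvd_of_dvd_pow h6)).symm
    · exact hm h6
  have hX : PiN ({s, t} : Set ℕ) (Nat.card (T1 ⊔ (P : Subgroup S) : Subgroup S)) := by
    refine piN_sup hTN ?_ (piN_sub ht.out (Or.inr rfl) P.isPGroup')
    intro r hr hrd
    rw [hcT] at hrd
    left
    exact (Nat.prime_dvd_prime_iff_eq hr hs.out).1 (hr.dvd_of_dvd_pow hrd)
  obtain ⟨g, hg⟩ := hdom _ hX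
  set K : Subgroup S := MulAut.conj g • K₀ with hK
  have hcK : Nat.card K = s ^ a * t ^ b := by rw [hK, card_conj_smul, hcK₀]
  have hPK : (P : Subgroup S) ≤ K := le_sup_right.trans hg
  have hTK : T1 ≤ K := le_sup_left.trans hg
  let Q : Sylow t K := P.subtype hPK
  have h1 : normalizer ((Q : Subgroup K) : Set K) = N.subgroupOf K := by
    have h2 : (Q : Subgroup K) = (P : Subgroup S).subgroupOf K := rfl
    rw [h2]
    exact (subgroupOf_normalizer_eq hPK).symm
  have h3 : Nat.card (Sylow t K) = (normalizer ((Q : Subgroup K) : Set K)).index := Sylow.card_eq_index_normalizer Q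
  have h4 := (N.subgroupOf K).card_mul_index
  rw [← h1, ← h3, h1, hcK] at h4
  have h5 : Nat.card (N.subgroupOf K) = Nat.card (N ⊓ K : Subgroup S) := by
    rw [← subgroupOf_map_subtype, card_map_of_injective (subtype_injective K)]
  have h6 : s ^ d * t ^ b ∣ Nat.card (N ⊓ K : Subgroup S) := by
    refine Nat.Coprime.mul_dvd_of_dvd_of_dvd ?_ ?_ ?_
    · exact Nat.Coprime.pow _ _ ((Nat.coprime_primes hs.out ht.out).2 hst)
    · rw [← hcT]; exact card_dvd_of_le (le_inf hTN hTK)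
    · rw [← hcP]; exact card_dvd_of_le (le_inf le_normalizer hPK)
  obtain ⟨w, hw⟩ := h6
  rw [h5, hw] at h4
  have h7 : s ^ d * (w * Nat.card (Sylow t K)) = s ^ a := by
    apply Nat.eq_of_mul_eq_mul_right (pow_pos ht.out.pos b)
    rw [← h4]; ring
  have hda : d ≤ a := (Nat.pow_dvd_pow_iff_le_right hs.out.one_lt).1 ⟨_, h7.symm⟩
  have h8 : w * Nat.card (Sylow t K) = s ^ (a - d) := by
    apply Nat.eq_of_mul_eq_mul_left (pow_pos hs.out.pos d)
    rw [h7, ← pow_add]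
    congr 1
    omega
  obtain ⟨i, hi, hwi⟩ := (Nat.dvd_prime_pow hs.out).1 (⟨_, h8.symm⟩ : w ∣ s ^ (a - d))
  have hi0 : i = 0 := by
    by_contra hne
    apply hd'
    have h9 : s ^ (d + 1) ∣ Nat.card (N ⊓ K : Subgroup S) := by
      rw [hw, hwi]
      obtain ⟨j, rfl⟩ := Nat.exists_eq_succ_of_ne_zero hne
      exact ⟨t ^ b * s ^ j, by rw [pow_succ, pow_succ]; ring⟩
    exact h9.trans (card_dvd_of_le inf_le_left)
  rw [hi0, pow_zero] at hwi
  rw [hwi, one_mul] at h8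
  apply har
  rw [← h8]
  exact card_sylow_modEq_one t K

/-- **the count for a Sylow subgroup of order `t`** -/
theorem no_of_norm [Finite S] {N s t a m d n : ℕ} (hS : Nat.card S = N) (hs : s.Prime) (ht : t.Prime) {x : S}
    (hx : orderOf x = t) (hn : Nat.card (normalizer ((zpowers x : Subgroup S) : Set S)) = n)
    (hN : s ≠ t ∧ N = s ^ a * t * m ∧ ¬ s ∣ m ∧ ¬ t ∣ m ∧ s ^ d ∣ n ∧ ¬ s ^ (d + 1) ∣ n ∧ ¬ s ^ (a - d) % t = 1 % t) :
    ¬ Dom ({s, t} : Set ℕ) S := by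
  obtain ⟨hst, hN, h2, hm, hd, hd', har⟩ := hN
  have hs' : Fact s.Prime := ⟨hs⟩
  have ht' : Fact t.Prime := ⟨ht⟩
  have hnt : ¬ t ∣ s ^ a * m := by
    intro h5
    rcases ht.dvd_mul.1 h5 with h6 | h6
    · exact hst ((Nat.prime_dvd_prime_iff_eq ht hs).1 (ht.dvd_of_dvd_pow h6)).symm
    · exact hm h6
  obtain ⟨P, hP⟩ : ∃ P : Sylow t S, (P : Subgroup S) = zpowers x := by
    obtain ⟨P, hP⟩ := (IsPGroup.of_card (p := t) (n := 1) (G := zpowers x)
      (by rw [Nat.card_zpowers, hx, pow_one])).exists_le_sylow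
    exact ⟨P, (eq_of_le_of_card_ge hP (by
      rw [card_sylow_of P (b := 1) (n := s ^ a * m) (by rw [hS, hN]; ring) hnt, Nat.card_zpowers, hx, pow_one])).symm⟩
  exact no_of_count (a := a) (b := 1) (m := m) (d := d) hst (by rw [hS, hN, pow_one]) h2 hm P
    (by rw [hP, hn]; exact hd) (by rw [hP, hn]; exact hd') har

end Cfsg.Agent.H768.RM
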